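import Cfsg.Agent.H40.AbelianSubsections
import Cfsg.Agent.H22.PairNilpotentDict
import Cfsg.Agent.H22.PairExtra

/-!
# Ranks of the blocks below a maximal pair, and passing to a subgroup
-/

set_option autoImplicit false
set_option linter.unusedSectionVars false
set_option maxHeartbeats 400000

namespace Cfsg.Agent.H40.Descend

open Cfsg
open Cfsg.Agent.H22 (IsBlockEl IsMaxEl IsPairEl Below el elTop emb cut cj cS pairStab)
open Cfsg.Agent.H41 (ResField)
open Cfsg.Agent.H43 (irrCongr)

universe u

variable {G : Type u} [Group G] [Finite G] {p : ℕ} [Fact p.Prime] {M : Ideal Cfsg.AlgInt}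
  [M.IsMaximal] [CharP (ResField M) p] {P : Subgroup G} {e : MonoidAlgebra (ResField M) G}

/-- The blocks of `K` below the pair `(P, e)`. -/
def belowSet (M : Ideal Cfsg.AlgInt) [M.IsMaximal] (P : Subgroup G)
    (e : MonoidAlgebra (ResField M) G) (K : Subgroup G) : Set (Set (Cfsg.IrrCharacter K)) :=
  {b | Cfsg.IsPBlock M b ∧ cut (Subgroup.centralizer (P : Set G)) (el M K b) * e = e}

/-- The rank of the block of `K` below the pair `(P, e)`. -/
noncomputable def lrk (p : ℕ) (M : Ideal Cfsg.AlgInt) [M.IsMaximal] (P : Subgroup G)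
    (e : MonoidAlgebra (ResField M) G) (K : Subgroup G) : ℕ :=
  ∑ᶠ b ∈ belowSet M P e K, Cfsg.blockRank p b

theorem belowSet_unique (hP : IsPGroup p P) {K : Subgroup G} (hPK : P ≤ K) (he : e ≠ 0)
    {b b' : Set (Cfsg.IrrCharacter K)} (hb : b ∈ belowSet M P e K) (hb' : b' ∈ belowSet M P e K) :
    b' = b := by
  rcases (H22.isBlockEl_el hb'.1).eq_or_mul_eq_zero (H22.isBlockEl_el hb.1) with h | h
  · exact H22.el_inj hb'.1 hb.1 h
  · refine absurd ?_ he
    have hm := H22.cut_mul hP ((H22.isBlockEl_el hb'.1).cent.inv.mono hPK)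
      ((H22.isBlockEl_el hb.1).cent.inv.mono hPK)
    rw [h, map_zero] at hm
    calc e = cut (Subgroup.centralizer (P : Set G)) (el M K b') *
          (cut (Subgroup.centralizer (P : Set G)) (el M K b) * e) := by rw [hb.2, hb'.2]
      _ = 0 := by rw [← mul_assoc, ← hm, zero_mul]

theorem lrk_eq (hP : IsPGroup p P) {K : Subgroup G} (hPK : P ≤ K) (he : e ≠ 0)
    {b : Set (Cfsg.IrrCharacter K)} (hb : b ∈ belowSet M P e K) :
    lrk p M P e K = Cfsg.blockRank p b := by
  rw [lrk, Set.eq_singleton_iff_unique_mem.2 ⟨hb, fun b' hb' => belowSet_unique hP hPK he hb hb'⟩,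
    finsum_mem_singleton]

/-- The whole group. -/
theorem lrk_top (hP : IsPGroup p P) (he : e ≠ 0) {B : Set (Cfsg.IrrCharacter G)}
    (hB : Cfsg.IsPBlock M B) (hbel : Below (elTop M B) (P, e)) :
    lrk p M P e ⊤ = Cfsg.blockRank p B := by
  have hel : el M (⊤ : Subgroup G) (irrCongr (Subgroup.topEquiv : (⊤ : Subgroup G) ≃* G) '' B) =
      elTop M B := by
    refine ext_coeff fun x => ?_
    rw [H22.coeff_el, H22.coeff_elTop, Cfsg.subgroupBlockCoeff, dif_pos (Subgroup.mem_top x),
      H22.blockCoeff_image]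
    rfl
  rw [lrk_eq hP le_top he (b := irrCongr (Subgroup.topEquiv : (⊤ : Subgroup G) ≃* G) '' B)
    ⟨H22.isPBlock_image _ hB, by rw [hel]; exact hbel⟩, blockRank_image]

/-- Passing to a subgroup containing the centraliser of `P`. -/
theorem lrk_descend (H : Subgroup G) (hPH : P ≤ H) {e' : MonoidAlgebra (ResField M) H}
    (he' : emb H.subtype e' = e) (K' : Subgroup H) (K : Subgroup G) (hK : K'.map H.subtype = K) :
    lrk p M (P.subgroupOf H) e' K' = lrk p M P e K := by
  subst hK
  have hinj : Function.Injective H.subtype := H.subtype_injective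
  let ε : K' ≃* K'.map H.subtype := K'.equivMapOfInjective H.subtype hinj
  have hel : ∀ b : Set (Cfsg.IrrCharacter (K'.map H.subtype)),
      emb H.subtype (el M K' (irrCongr ε '' b)) = el M (K'.map H.subtype) b := by
    intro b
    refine ext_coeff fun x => ?_
    by_cases hx : x ∈ H
    · show (emb H.subtype _).coeff (H.subtype ⟨x, hx⟩) = _
      rw [H22.coeff_emb_apply hinj, H22.coeff_el, H22.coeff_el, Cfsg.subgroupBlockCoeff,
        Cfsg.subgroupBlockCoeff]
      by_cases hx' : (⟨x, hx⟩ : H) ∈ K'
      · rw [dif_pos hx', dif_pos (show x ∈ K'.map H.subtype from ⟨⟨x, hx⟩, hx', rfl⟩),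
          H22.blockCoeff_image]
        rfl
      · rw [dif_neg hx', dif_neg]
        rintro ⟨⟨y, hy⟩, hy', rfl⟩
        exact hx' hy'
    · rw [H22.coeff_emb_notMem _ (by rwa [H.range_subtype]),
        H22.coeff_el, Cfsg.subgroupBlockCoeff, dif_neg (fun h => hx (Subgroup.map_subtype_le K' h)),
        H22.resT_zero]
  have hmap : (P.subgroupOf H).map H.subtype = P := Subgroup.map_subgroupOf_eq_of_le hPH
  have hcond : ∀ b : Set (Cfsg.IrrCharacter (K'.map H.subtype)),
      cut (Subgroup.centralizer ((P.subgroupOf H : Subgroup H) : Set H)) (el M K' (irrCongr ε '' b)) *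
        e' = e' ↔ cut (Subgroup.centralizer (P : Set G)) (el M (K'.map H.subtype) b) * e = e := by
    intro b
    have h : emb H.subtype (cut (Subgroup.centralizer ((P.subgroupOf H : Subgroup H) : Set H))
        (el M K' (irrCongr ε '' b)) * e') =
        cut (Subgroup.centralizer (P : Set G)) (el M (K'.map H.subtype) b) * e := by
      rw [map_mul, he', ← H22.cut_emb hinj, hel, hmap]
    rw [← (H22.emb_injective hinj).eq_iff, h, he']
  have hinv : ∀ ψ : Cfsg.IrrCharacter K', irrCongr ε (irrCongr ε.symm ψ) = ψ :=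
    fun ψ => Subtype.ext (funext fun x => by simp [H43.irrCongr_apply])
  have hinv' : ∀ ψ : Cfsg.IrrCharacter (K'.map H.subtype),
      irrCongr ε.symm (irrCongr ε ψ) = ψ :=
    fun ψ => Subtype.ext (funext fun x => by simp [H43.irrCongr_apply])
  symm
  refine finsum_mem_eq_of_bijOn (fun b => irrCongr ε '' b) ⟨?_, ?_, ?_⟩ fun b _ => ?_
  · exact fun b hb => ⟨H22.isPBlock_image ε hb.1, (hcond b).2 hb.2⟩
  · intro b _ b' _ h
    have h' := congrArg (fun s => irrCongr ε.symm '' s) h
    simpa [Set.image_image, hinv'] using h'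
  · intro b' hb'
    have hb'' : irrCongr ε '' (irrCongr ε.symm '' b') = b' := by simp [Set.image_image, hinv]
    refine ⟨irrCongr ε.symm '' b', ⟨H22.isPBlock_image ε.symm hb'.1, ?_⟩, hb''⟩
    rw [← hcond, hb'']
    exact hb'.2
  · rw [blockRank_image]

/-- A block element seen in a subgroup. -/
theorem isBlockEl_of_emb {H : Subgroup G} {L : Subgroup H} {a : MonoidAlgebra (ResField M) H}
    (ha : IsBlockEl (L.map H.subtype) (emb H.subtype a)) : IsBlockEl L a where
  cent := ⟨fun h hh => by
      refine (Subgroup.mem_map_iff_mem H.subtype_injective).1 (ha.cent.supp _ ?_)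
      rwa [H22.coeff_emb_apply H.subtype_injective], fun l hl => by
      refine H22.emb_injective H.subtype_injective ?_
      rw [← H22.cj_emb H.subtype_injective, ha.cent.inv _ (Subgroup.mem_map_of_mem _ hl)]⟩
  idem := H22.emb_injective H.subtype_injective (by rw [map_mul, ha.idem])
  ne_zero h := ha.ne_zero (by rw [h, map_zero])
  prim c hc hc2 := by
    have hcm : H22.IsCent (L.map H.subtype) (emb H.subtype c) := ⟨fun x hx => by
        obtain ⟨h, rfl⟩ := H22.supp_emb H.subtype c x hx
        rw [H22.coeff_emb_apply H.subtype_injective] at hx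
        exact Subgroup.mem_map_of_mem _ (hc.supp h hx), by
        rintro _ ⟨l, hl, rfl⟩
        rw [H22.cj_emb H.subtype_injective, hc.inv l hl]⟩
    rcases ha.prim _ hcm (by rw [← map_mul, hc2]) with h | h
    · left
      refine H22.emb_injective H.subtype_injective ?_
      rw [map_mul, h, map_zero]
    · right
      refine H22.emb_injective H.subtype_injective ?_
      rw [map_mul, h]

variable {B : Set (Cfsg.IrrCharacter G)}

/-- A subsection block carries a maximal pair inside its centraliser. -/
theorem exists_local_max (hM : Cfsg.IsPModular p M) (hB : Cfsg.IsPBlock M B)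
    (hm : IsMaxEl p ⊤ (elTop M B) (P, e)) (hab : ∀ x ∈ P, ∀ y ∈ P, x * y = y * x) {v : G}
    {b : Set (Cfsg.IrrCharacter (Subgroup.centralizer ({v} : Set G)))}
    (h : SubAt p M P e v b) :
    ∃ e' : MonoidAlgebra (ResField M) (Subgroup.centralizer ({v} : Set G)),
      emb (Subgroup.centralizer ({v} : Set G)).subtype e' = e ∧
      IsMaxEl p ⊤ (elTop M b) (P.subgroupOf (Subgroup.centralizer ({v} : Set G)), e') := by
  obtain ⟨hns, hmax⟩ := isMaxEl_local hM hB hm hab h.2
  obtain ⟨-, hPC, hPD⟩ := isInducedBlock_of_subAt hM hB hm hab h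
  have hinj : Function.Injective (Subgroup.centralizer ({v} : Set G)).subtype := (Subgroup.centralizer ({v} : Set G)).subtype_injective
  have hCH : Subgroup.centralizer (P : Set G) ≤ (Subgroup.centralizer ({v} : Set G)) := by
    exact Subgroup.centralizer_le (Set.singleton_subset_iff.2 (h.2.le (Subgroup.mem_zpowers v)))
  have heC : IsBlockEl (Subgroup.centralizer (P : Set G)) e := by simpa using hm.pair.block
  have hsupp : H22.Supp (Subgroup.centralizer ({v} : Set G)).subtype.range e := by
    rw [(Subgroup.centralizer ({v} : Set G)).range_subtype]; exact heC.cent.supp.mono hCH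
  let e' : MonoidAlgebra (ResField M) (Subgroup.centralizer ({v} : Set G)) := ofFun fun x => e.coeff (x : G)
  have he' : emb (Subgroup.centralizer ({v} : Set G)).subtype e' = e := ext_coeff fun x => by
    by_cases hx : x ∈ (Subgroup.centralizer ({v} : Set G))
    · show (emb (Subgroup.centralizer ({v} : Set G)).subtype e').coeff ((Subgroup.centralizer ({v} : Set G)).subtype ⟨x, hx⟩) = _
      rw [H22.coeff_emb_apply hinj, coeff_ofFun]
    · rw [H22.coeff_emb_notMem _ (by rwa [(Subgroup.centralizer ({v} : Set G)).range_subtype]),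
        hsupp.coeff_eq_zero (by rwa [(Subgroup.centralizer ({v} : Set G)).range_subtype])]
  have hmap : (P.subgroupOf (Subgroup.centralizer ({v} : Set G))).map (Subgroup.centralizer ({v} : Set G)).subtype = P := Subgroup.map_subgroupOf_eq_of_le hPC
  have hcen : (Subgroup.centralizer ((P.subgroupOf (Subgroup.centralizer ({v} : Set G)) : Subgroup (Subgroup.centralizer ({v} : Set G))) : Set (Subgroup.centralizer ({v} : Set G)))).map (Subgroup.centralizer ({v} : Set G)).subtype =
      Subgroup.centralizer (P : Set G) := by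
    rw [← H22.cen_range_map hinj, hmap, (Subgroup.centralizer ({v} : Set G)).range_subtype]
    exact inf_eq_left.2 hCH
  have hpair : IsPairEl p (⊤ : Subgroup (Subgroup.centralizer ({v} : Set G))) (P.subgroupOf (Subgroup.centralizer ({v} : Set G)), e') :=
    ⟨le_top, hm.pair.pGroup.of_equiv (Subgroup.subgroupOfEquivOfLe hPC).symm, by
      show IsBlockEl (H22.cen ⊤ (P.subgroupOf (Subgroup.centralizer ({v} : Set G)))) e'
      rw [H22.cen_top']
      exact isBlockEl_of_emb (by rw [hcen, he']; exact heC)⟩
  have hbel : Below (elTop M b) (P.subgroupOf (Subgroup.centralizer ({v} : Set G)), e') := by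
    show cut _ (elTop M b) * e' = e'
    refine H22.emb_injective hinj ?_
    rw [map_mul, he', ← H22.cut_emb hinj, H22.emb_elTop hinj, hmap]
    exact hmax.below
  exact ⟨e', he', H22.isMaxEl_of_isDefEl hpair hbel
    ((H22.isDefectGroup_top_iff hM h.1).1 hPD)⟩

end Cfsg.Agent.H40.Descend
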