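import Cfsg.Agent.H40.Descend
import Cfsg.Agent.H40.StarNorm
import Cfsg.Agent.H22.Star
import Cfsg.Agent.H56.SubsectionMajor
import Cfsg.Agent.H40.BlockDefect
import Cfsg.Agent.H52.Homocyclic.Analysis

/-!
# The trace of multiplication by a stable function, abelian defect group
-/

set_option autoImplicit false
set_option linter.unusedSectionVars false
set_option maxHeartbeats 400000

open scoped ComplexConjugate

namespace Cfsg.Agent.H40.StarTrace

open Cfsg
open Cfsg.Agent.H22 (IsBlockEl IsMaxEl IsPairEl Below PLe el elTop cj cS pairStab wt CarriesInto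
  PairStable)
open Cfsg.Agent.H41 (ResField)
open Cfsg.Agent.H43 (irrCongr)
open Cfsg.Agent.H56.Subsec (mem' mem_mem' bpart cont)

universe u

/-- The centraliser of the group generated by `x`. -/
abbrev CZ {G : Type u} [Group G] (x : G) : Subgroup G :=
  Subgroup.centralizer (Subgroup.zpowers x : Set G)

variable {G : Type u} [Group G] [Fintype G] {p : ℕ} [Fact p.Prime] {M : Ideal Cfsg.AlgInt}
  [M.IsMaximal]

open scoped Classical in
theorem bpart_eq_secPart {x : G} (c : Set (Cfsg.IrrCharacter (CZ x))) (χ : Cfsg.IrrCharacter G)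
    (s : CZ x) :
    bpart p x c χ s =
      if Cfsg.IsPRegular p s then StarNorm.secPart (χ : G → ℂ) x c s else 0 := by
  rw [bpart, ← H32.pRegularPart_blockPart]
  unfold Cfsg.pRegularPart
  by_cases h : Cfsg.IsPRegular p s
  · rw [if_pos h, if_pos h]; rfl
  · rw [if_neg h, if_neg h]

open scoped Classical in
/-- The square norm of the part of a character in a block of a section. -/
noncomputable def secNorm (p : ℕ) (x : G) (c : Set (Cfsg.IrrCharacter (CZ x)))
    (χ : Cfsg.IrrCharacter G) : ℂ :=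
  ∑ s ∈ Finset.univ.filter (fun s : CZ x => Cfsg.IsPRegular p s),
    StarNorm.secPart (χ : G → ℂ) x c s * conj (StarNorm.secPart (χ : G → ℂ) x c s)

/-- The square norms over a block add up to the rank. -/
theorem sum_secNorm (hM : Cfsg.IsPModular p M) {B : Set (Cfsg.IrrCharacter G)} {x : G}
    (hx : ∃ k : ℕ, orderOf x = p ^ k) {c : Set (Cfsg.IrrCharacter (CZ x))}
    (hind : Cfsg.IsInducedBlock M (CZ x) c B) :
    ∑ χ ∈ mem' B, secNorm p x c χ = (Nat.card (CZ x) : ℂ) * (Cfsg.blockRank p c : ℂ) := by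
  classical
  have hW := H32.weakOrthogonal_of_isPBlock (C := CZ x) hM hind.1
  rw [← H32.trace_projKernel hW, Finset.mul_sum]
  simp only [secNorm]
  rw [Finset.sum_comm, Finset.sum_filter]
  refine Finset.sum_congr rfl fun s _ => ?_
  rw [← H56.Subsec.sum_bpart_mul hM hx hind s s]
  split_ifs with h
  · exact Finset.sum_congr rfl fun χ _ => by rw [bpart_eq_secPart, if_pos h]
  · exact (Finset.sum_eq_zero fun χ _ => by rw [bpart_eq_secPart, if_neg h, zero_mul]).symm

/-- The trace of multiplication by `η` on the block. -/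
noncomputable def tr (p : ℕ) [Fact p.Prime] (M : Ideal Cfsg.AlgInt) [M.IsMaximal]
    (m : Subgroup G × MonoidAlgebra (ResField M) G) (B : Set (Cfsg.IrrCharacter G))
    (η : G → ℂ) : ℂ :=
  ∑ χ ∈ mem' B, Cfsg.classInner (H22.star p M m η (χ : G → ℂ)) (χ : G → ℂ)

open scoped Classical in
theorem tr_eq_sum (hM : Cfsg.IsPModular p M) (m : Subgroup G × MonoidAlgebra (ResField M) G)
    (B : Set (Cfsg.IrrCharacter G)) (η : G → ℂ) :
    tr p M m B η = (Nat.card G : ℂ)⁻¹ *
      ∑ x ∈ Finset.univ.filter (fun x : G => ∃ k : ℕ, orderOf x = p ^ k),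
        ∑ c ∈ StarNorm.secBlocks M x,
          wt p m η x (el M (CZ x) c) * ∑ χ ∈ mem' B, secNorm p x c χ := by
  simp only [tr, Cfsg.classInner, ← Finset.mul_sum]
  congr 1
  rw [Finset.sum_congr rfl fun (χ : Cfsg.IrrCharacter G) _ =>
    StarNorm.sum_eq_sum_p_elements (p := p)
      (fun g => H22.star p M m η (χ : G → ℂ) g * conj ((χ : G → ℂ) g)), Finset.sum_comm]
  refine Finset.sum_congr rfl fun x hx => ?_
  have hx' := (Finset.mem_filter.1 hx).2
  simp only [Finset.mul_sum]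
  rw [eq_comm, Finset.sum_comm]
  refine Finset.sum_congr rfl fun χ _ => ?_
  rw [eq_comm, Finset.sum_congr rfl fun s hs => by
      rw [StarNorm.star_mul_eq (H26.irr_isClassFunction χ) hx' (Finset.mem_filter.1 hs).2,
        Finset.sum_mul], Finset.sum_comm]
  refine Finset.sum_congr rfl fun c hc => ?_
  simp only [mul_assoc, ← Finset.mul_sum]
  rw [StarNorm.sum_secPart_mul hM (H26.irr_isClassFunction χ) hc]
  rfl

variable [CharP (ResField M) p] {B : Set (Cfsg.IrrCharacter G)} {P : Subgroup G}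
  {e : MonoidAlgebra (ResField M) G}

/-- The number of elements in the product of two subgroups, translated. -/
theorem card_translate_mul (T C : Subgroup G) (g₀ : G) (S : Finset G)
    (hS : ∀ g, g ∈ S ↔ ∃ y ∈ T, ∃ d ∈ C, g = y * d * g₀) :
    S.card * Nat.card (T ⊓ C : Subgroup G) = Nat.card T * Nat.card C := by
  classical
  have hmap : ∀ z ∈ (Finset.univ : Finset (T × C)), (z.1 : G) * (z.2 : G) * g₀ ∈ S :=
    fun z _ => (hS _).2 ⟨_, z.1.2, _, z.2.2, rfl⟩
  have h := Finset.card_eq_sum_card_fiberwise hmap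
  have hfib : ∀ g ∈ S, (Finset.univ.filter fun z : T × C => (z.1 : G) * (z.2 : G) * g₀ = g).card =
      Nat.card (T ⊓ C : Subgroup G) := by
    intro g hg
    obtain ⟨y, hy, d, hd, rfl⟩ := (hS g).1 hg
    rw [Nat.card_eq_fintype_card]
    refine (Finset.card_bij (fun (i : (T ⊓ C : Subgroup G)) _ =>
      ((⟨y * i, T.mul_mem hy i.2.1⟩ : T), (⟨(i : G)⁻¹ * d, C.mul_mem (C.inv_mem i.2.2) hd⟩ : C)))
      (fun i _ => Finset.mem_filter.2 ⟨Finset.mem_univ _, by simp [mul_assoc]⟩)
      (fun i _ j _ h => by simpa using congrArg Prod.fst h) ?_).symm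
    rintro ⟨a, b⟩ hab
    have hab' : (a : G) * (b : G) = y * d := mul_right_cancel (Finset.mem_filter.1 hab).2
    have h1 : y⁻¹ * (a : G) = d * (b : G)⁻¹ := by
      calc y⁻¹ * (a : G) = y⁻¹ * ((a : G) * (b : G)) * (b : G)⁻¹ := by group
        _ = _ := by rw [hab']; group
    refine ⟨⟨y⁻¹ * a, T.mul_mem (T.inv_mem hy) a.2, h1 ▸ C.mul_mem hd (C.inv_mem b.2)⟩,
      Finset.mem_univ _, Prod.ext (Subtype.ext (by simp)) (Subtype.ext ?_)⟩
    show (y⁻¹ * (a : G))⁻¹ * d = b
    rw [h1]; group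
  rw [Finset.sum_congr rfl hfib, Finset.sum_const, smul_eq_mul, Finset.card_univ,
    Fintype.card_prod, ← Nat.card_eq_fintype_card, ← Nat.card_eq_fintype_card] at h
  exact h.symm

theorem cS_zpowers (g x : G) : cS g (Subgroup.zpowers x) = Subgroup.zpowers (g * x * g⁻¹) :=
  MonoidHom.map_zpowers _ _

theorem cS_CZ (g x : G) : cS g (CZ x) = CZ (g * x * g⁻¹) := by
  rw [CZ, CZ, H22.cS_centralizer, cS_zpowers]

variable (hM : Cfsg.IsPModular p M) (hB : Cfsg.IsPBlock M B)
  (hm : IsMaxEl p ⊤ (elTop M B) (P, e)) (hab : ∀ x ∈ P, ∀ y ∈ P, x * y = y * x)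

include hM hB hm hab

/-- Above an element of `P` exactly one block is carried by a given element. -/
theorem existsUnique_carried {g x : G} (hgx : g * x * g⁻¹ ∈ P) :
    ∃! c, c ∈ StarNorm.secBlocks M x ∧ CarriesInto p (P, e) x (el M (CZ x) c) g := by
  have hS := H22.split M G
  obtain ⟨f, hf, hu⟩ := H22.existsUnique_ple hS hm.pair (cS g (Subgroup.zpowers x))
    (by rw [cS_zpowers]; exact Subgroup.zpowers_le.2 hgx)
  have hblk : IsBlockEl (CZ x) (cj g⁻¹ f) := by
    have h := (hf.left hm.pair).conj g⁻¹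
    rw [H22.cS_inv_cS, show cS g⁻¹ (⊤ : Subgroup G) = ⊤ from
      Subgroup.map_top_of_surjective _ (MulAut.conj g⁻¹).surjective] at h
    simpa using h.block
  obtain ⟨c, hc, hce⟩ := H22.exists_el_eq hblk
  have hcar : CarriesInto p (P, e) x (el M (CZ x) c) g := by
    show PLe p ⊤ (cS g (Subgroup.zpowers x), cj g (el M (CZ x) c)) (P, e)
    rwa [hce, H22.cj_cj_inv]
  refine ⟨c, ⟨StarNorm.mem_secBlocks.2 hc, hcar⟩, fun c' hc' => ?_⟩
  refine H22.el_inj (StarNorm.mem_secBlocks.1 hc'.1) hc ?_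
  rw [hce, ← hu _ hc'.2, H22.cj_inv_cj]

/-- The carried blocks induce `B` and have the rank of the block below the maximal pair. -/
theorem carried_spec {g x : G} (hx : ∃ k : ℕ, orderOf x = p ^ k)
    {c : Set (Cfsg.IrrCharacter (CZ x))} (hc : Cfsg.IsPBlock M c)
    (hcar : CarriesInto p (P, e) x (el M (CZ x) c) g) :
    Cfsg.IsInducedBlock M (CZ x) c B ∧
      Nat.card (CZ x) = Nat.card (CZ (g * x * g⁻¹)) ∧
      Cfsg.blockRank p c = Descend.lrk p M P e (CZ (g * x * g⁻¹)) := by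
  obtain ⟨k, hk⟩ := hx
  have hb := H22.isBlockEl_elTop hB
  refine ⟨?_, by rw [← cS_CZ, H22.card_cS], ?_⟩
  · refine (isInducedBlock_iff_below hM hB (Q := Subgroup.zpowers x)
      (IsPGroup.of_card (n := k) (by rw [Nat.card_zpowers, hk])) ?_ _ rfl hc).2 ?_
    · rw [centralizer_zpowers_eq, Subgroup.zpowers_le, Subgroup.mem_centralizer_singleton_iff]
    · have h1 : Below (elTop M B) (cS g (Subgroup.zpowers x), cj g (el M (CZ x) c)) :=
        ((show PLe p ⊤ (cS g (Subgroup.zpowers x), cj g (el M (CZ x) c)) (P, e) from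
          hcar).below_iff hb).2 hm.below
      have h2 := h1.conj g⁻¹
      rwa [H22.cj_elTop hB, H22.cS_inv_cS, H22.cj_inv_cj] at h2
  · have hle : PLe p ⊤ (Subgroup.zpowers (g * x * g⁻¹),
        el M (CZ (g * x * g⁻¹)) (H22.conjSet g _ _ (cS_CZ g x) c)) (P, e) := by
      rw [H22.el_conjSet, ← cS_zpowers]
      exact hcar
    have hv : g * x * g⁻¹ ∈ P := hle.le (Subgroup.mem_zpowers _)
    obtain ⟨-, hmax⟩ := isMaxEl_local hM hB hm hab hle
    have he : e ≠ 0 := hm.pair.block.ne_zero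
    rw [Descend.lrk_eq hm.pair.pGroup hmax.pair.le he
      ⟨H22.isPBlock_conjSet _ hc, hmax.below⟩, H22.conjSet, blockRank_image]

/-- The elements carrying a pair into `(P, e)`. -/
theorem carries_iff {g₀ x : G} {c : Set (Cfsg.IrrCharacter (CZ x))}
    (h₀ : CarriesInto p (P, e) x (el M (CZ x) c) g₀) (hc : Cfsg.IsPBlock M c) (g : G) :
    CarriesInto p (P, e) x (el M (CZ x) c) g ↔
      ∃ y ∈ pairStab P e, ∃ d ∈ CZ (g₀ * x * g₀⁻¹), g = y * d * g₀ := by
  constructor
  · intro hg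
    have h' : PLe p ⊤ (cS (g * g₀⁻¹) (cS g₀ (Subgroup.zpowers x)),
        cj (g * g₀⁻¹) (cj g₀ (el M (CZ x) c))) (P, e) := by
      rw [← H22.cS_mul, ← H22.cj_mul_apply, inv_mul_cancel_right]
      exact hg
    obtain ⟨y, hy, d, hd, hyd⟩ := exists_ext_of_carry hM hB hm hab h₀ h'
    rw [cS_zpowers] at hd
    exact ⟨y, hy, d, hd, by rw [← hyd, inv_mul_cancel_right]⟩
  · rintro ⟨y, hy, d, hd, rfl⟩
    have hd' : cS d (cS g₀ (Subgroup.zpowers x)) = cS g₀ (Subgroup.zpowers x) := by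
      rw [cS_zpowers g₀]
      exact H22.cS_eq_self (Subgroup.centralizer_le_normalizer _ hd)
    have hfix : cj d (cj g₀ (el M (CZ x) c)) = cj g₀ (el M (CZ x) c) := by
      rw [← H22.el_conjSet g₀ _ _ (cS_CZ g₀ x)]
      exact (H22.isBlockEl_el (H22.isPBlock_conjSet _ hc)).cent.inv _ hd
    show PLe p ⊤ (cS (y * d * g₀) (Subgroup.zpowers x),
      cj (y * d * g₀) (el M (CZ x) c)) (P, e)
    rw [H22.cS_mul, H22.cS_mul, H22.cj_mul_apply, H22.cj_mul_apply, hd', hfix]
    exact ple_conj_of_mem_pairStab hM hB hm h₀ hy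

/-- The weight of an element of `P`. -/
noncomputable def wgt (p : ℕ) (M : Ideal Cfsg.AlgInt) [M.IsMaximal] (P : Subgroup G)
    (e : MonoidAlgebra (ResField M) G) (v : G) : ℕ :=
  Descend.lrk p M P e (Subgroup.centralizer ({v} : Set G)) *
    Nat.card (pairStab P e ⊓ Subgroup.centralizer ({v} : Set G) : Subgroup G)

open scoped Classical in
/-- **The trace.** -/
theorem card_mul_tr {η : G → ℂ} (hst : PairStable p (P, e) η) [Fintype P] :
    (Nat.card (pairStab P e) : ℂ) * tr p M (P, e) B η =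
      ∑ v : P, η (v : G) * (wgt p M P e v : ℂ) := by
  set T : ℂ := (Nat.card (pairStab P e) : ℂ) with hT
  set Φ : G → ℂ := fun v => η v * (wgt p M P e v : ℂ) with hΦ
  set X := Finset.univ.filter (fun x : G => ∃ k : ℕ, orderOf x = p ^ k) with hX
  have hG : (Nat.card G : ℂ) ≠ 0 := Nat.cast_ne_zero.2 Nat.card_pos.ne'
  have hterm : ∀ x ∈ X, ∀ c ∈ StarNorm.secBlocks M x,
      T * (wt p (P, e) η x (el M (CZ x) c) * ∑ χ ∈ mem' B, secNorm p x c χ) =
        ∑ g : G, if CarriesInto p (P, e) x (el M (CZ x) c) g then Φ (g * x * g⁻¹) else 0 := by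
    intro x hx c hc
    have hx' := (Finset.mem_filter.1 hx).2
    by_cases h : ∃ g₀, CarriesInto p (P, e) x (el M (CZ x) c) g₀
    · have hcb := StarNorm.mem_secBlocks.1 hc
      rw [← Finset.sum_filter]
      set S := Finset.univ.filter (fun g : G => CarriesInto p (P, e) x (el M (CZ x) c) g) with hSdef
      have hkey : ∀ g₀, CarriesInto p (P, e) x (el M (CZ x) c) g₀ →
          T * (wt p (P, e) η x (el M (CZ x) c) * ∑ χ ∈ mem' B, secNorm p x c χ) =
            (S.card : ℂ) * Φ (g₀ * x * g₀⁻¹) := by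
        intro g₀ hg₀
        obtain ⟨hind, hcard, hrank⟩ := carried_spec hM hB hm hab hx' hcb hg₀
        rw [sum_secNorm hM hx' hind, H22.wt_eq hst hg₀, hcard, hrank]
        have hS := card_translate_mul (pairStab P e) (CZ (g₀ * x * g₀⁻¹)) g₀ S fun g => by
          rw [hSdef, Finset.mem_filter]
          simpa using carries_iff hM hB hm hab hg₀ hcb g
        have hS' : (S.card : ℂ) *
            (Nat.card (pairStab P e ⊓ CZ (g₀ * x * g₀⁻¹) : Subgroup G) : ℂ) =
            T * (Nat.card (CZ (g₀ * x * g₀⁻¹)) : ℂ) := by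
          rw [hT]; exact_mod_cast hS
        simp only [hΦ, wgt, Nat.cast_mul]
        rw [← centralizer_zpowers_eq]
        linear_combination (-(η (g₀ * x * g₀⁻¹) *
          (Descend.lrk p M P e (CZ (g₀ * x * g₀⁻¹)) : ℂ))) * hS'
      obtain ⟨g₁, hg₁⟩ := h
      have hS0 : (S.card : ℂ) ≠ 0 := Nat.cast_ne_zero.2
        (Finset.card_ne_zero_of_mem (Finset.mem_filter.2 ⟨Finset.mem_univ g₁, hg₁⟩))
      rw [Finset.sum_congr (s₁ := S) rfl (g := fun _ =>
          (S.card : ℂ)⁻¹ * (T * (wt p (P, e) η x (el M (CZ x) c) * ∑ χ ∈ mem' B, secNorm p x c χ)))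
          fun g hg => by rw [hkey g (Finset.mem_filter.1 hg).2, inv_mul_cancel_left₀ hS0],
        Finset.sum_const, nsmul_eq_mul, mul_inv_cancel_left₀ hS0]
    · rw [H22.wt_of_forall_not fun g hg => h ⟨g, hg⟩, zero_mul, mul_zero]
      exact (Finset.sum_eq_zero fun g _ => if_neg fun hg => h ⟨g, hg⟩).symm
  rw [tr_eq_sum hM, ← mul_assoc, mul_comm T, mul_assoc, Finset.mul_sum (a := T),
    Finset.sum_congr rfl fun x hx => by
      rw [Finset.mul_sum, Finset.sum_congr rfl (hterm x hx), Finset.sum_comm],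
    Finset.sum_comm]
  rw [Finset.sum_congr rfl (g := fun _ : G => ∑ v : P, Φ v) fun g _ => ?_]
  · rw [Finset.sum_const, nsmul_eq_mul, Finset.card_univ, ← Nat.card_eq_fintype_card,
      inv_mul_cancel_left₀ hG]
  · have hval : ∀ x ∈ X, (∑ c ∈ StarNorm.secBlocks M x,
        if CarriesInto p (P, e) x (el M (CZ x) c) g then Φ (g * x * g⁻¹) else 0) =
        if g * x * g⁻¹ ∈ P then Φ (g * x * g⁻¹) else 0 := by
      intro x _
      split_ifs with h
      · obtain ⟨c, hc, hu⟩ := existsUnique_carried hM hB hm hab h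
        rw [Finset.sum_eq_single c (fun c' hc' hne => if_neg fun h' => hne (hu c' ⟨hc', h'⟩))
          (fun h' => absurd hc.1 h'), if_pos hc.2]
      · exact Finset.sum_eq_zero fun c _ => if_neg fun h' => h
          (h'.le (H22.conj_mem_cS (Subgroup.mem_zpowers x)))
    rw [Finset.sum_congr rfl hval, ← Finset.sum_filter]
    refine Finset.sum_bij (fun x hx => (⟨g * x * g⁻¹, (Finset.mem_filter.1 hx).2⟩ : P))
      (fun _ _ => Finset.mem_univ _)
      (fun a _ b _ h => by simpa using congrArg Subtype.val h) (fun v _ => ?_) fun _ _ => rfl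
    have hv : g * (g⁻¹ * (v : G) * g) * g⁻¹ = (v : G) := by group
    obtain ⟨k, hk⟩ := IsPGroup.iff_orderOf.1 hm.pair.pGroup v
    refine ⟨g⁻¹ * (v : G) * g, Finset.mem_filter.2 ⟨Finset.mem_filter.2 ⟨Finset.mem_univ _, k, ?_⟩,
      by rw [hv]; exact v.2⟩, Subtype.ext hv⟩
    rw [← hk, ← Subgroup.orderOf_coe, ← (MulAut.conj g).orderOf_eq, MulAut.conj_apply, hv]

end Cfsg.Agent.H40.StarTrace
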