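import Cfsg.Agent.H40.StarTrace
import Cfsg.Agent.H40.NilpotentBlocks

/-!
# An element of an abelian defect group fixed by the inertial group
-/

set_option autoImplicit false
set_option linter.unusedSectionVars false
set_option maxHeartbeats 400000

open scoped ComplexConjugate

namespace Cfsg.Agent.H40.Watanabe

open Cfsg
open Cfsg.Agent.H22 (IsBlockEl IsMaxEl IsPairEl Below PLe el elTop cj cS pairStab wt CarriesInto
  PairStable emb)
open Cfsg.Agent.H41 (ResField)
open Cfsg.Agent.H40.NilpotentBlocks (ext0 ext0_coe)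
open Cfsg.Agent.H40.StarTrace (tr wgt CZ secNorm)
open Cfsg.Agent.H40.Descend (lrk)
open Cfsg.Agent.H56.Subsec (mem' mem_mem' bpart cont redCont)

universe u

variable {G : Type u} [Group G] [Fintype G] {p : ℕ} [Fact p.Prime] {M : Ideal Cfsg.AlgInt}
  [M.IsMaximal] [CharP (ResField M) p] {B : Set (Cfsg.IrrCharacter G)} {P : Subgroup G}
  {e : MonoidAlgebra (ResField M) G}

variable (hM : Cfsg.IsPModular p M) (hB : Cfsg.IsPBlock M B)
  (hm : IsMaxEl p ⊤ (elTop M B) (P, e)) (hab : ∀ x ∈ P, ∀ y ∈ P, x * y = y * x)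

include hM hB hm hab

/-- The product of the conjugates under the inertial quotient. -/
theorem exists_average :
    ∃ π : P →* P, (∀ t ∈ pairStab P e, ∀ v w : P, (w : G) = t * (v : G) * t⁻¹ → π w = π v) ∧
      ∃ N : ℕ, ¬ p ∣ N ∧
        ∀ v : P, (∀ t ∈ pairStab P e, t * (v : G) * t⁻¹ = (v : G)) → π v = v ^ N := by
  classical
  letI : CommGroup P :=
    { (inferInstance : Group P) with mul_comm := fun a b => Subtype.ext (hab a a.2 b b.2) }
  set A := (H22.stabConj P e).range with hA
  have : Fintype A := Fintype.ofFinite _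
  refine ⟨∏ α : A, ((α : MulAut P) : P ≃* P).toMonoidHom, fun t ht v w hw => ?_,
    Nat.card A, fun hd => ?_, fun v hv => ?_⟩
  · have hw' : w = (H22.stabConj P e ⟨t, ht⟩) v := Subtype.ext (by rw [H22.coe_stabConj]; exact hw)
    simp only [MonoidHom.finsetProd_apply]
    refine Fintype.prod_equiv (Equiv.mulRight (⟨_, ⟨t, ht⟩, rfl⟩ : A)) _ _ fun α => ?_
    rw [hw']
    rfl
  · refine not_dvd_relIndex_pairStab hM hB hm hab (hd.trans ?_)
    rw [hA, ← Subgroup.index_ker]
    refine Subgroup.index_dvd_of_le fun t ht => MonoidHom.mem_ker.2 (MulEquiv.ext fun x => ?_)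
    refine Subtype.ext ?_
    rw [H22.coe_stabConj, MulAut.one_apply,
      ← Subgroup.mem_centralizer_iff.1 (Subgroup.mem_subgroupOf.1 ht) x x.2, mul_inv_cancel_right]
  · simp only [MonoidHom.finsetProd_apply]
    rw [Finset.prod_eq_pow_card (b := v) fun α _ => ?_, Finset.card_univ,
      Nat.card_eq_fintype_card]
    obtain ⟨t, ht⟩ := α.2
    rw [← ht]
    exact Subtype.ext ((H22.coe_stabConj _ _ _ _).trans (hv t t.2))

/-- An invariant function on `P`, extended by zero, is stable. -/
theorem pairStable_ext0 {θ : P → ℂ}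
    (hθ : ∀ t ∈ pairStab P e, ∀ v w : P, (w : G) = t * (v : G) * t⁻¹ → θ w = θ v) :
    PairStable p (P, e) (ext0 θ) := by
  intro Q g hc q hq
  obtain ⟨f, hf, hg⟩ := hc
  obtain ⟨y, hy, c, hc, rfl⟩ := exists_ext_of_carry hM hB hm hab hf hg
  have hqP : q ∈ P := hf.le hq
  have hcq : c * q = q * c := (Subgroup.mem_centralizer_iff.1 hc q hq).symm
  have h : y * c * q * (y * c)⁻¹ = y * q * y⁻¹ := by
    calc y * c * q * (y * c)⁻¹ = y * (c * q) * c⁻¹ * y⁻¹ := by group
      _ = _ := by rw [hcq]; group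
  have hyP : y * q * y⁻¹ ∈ P := (Subgroup.mem_normalizer_iff.1 hy.1 q).1 hqP
  rw [h, show y * q * y⁻¹ = ((⟨_, hyP⟩ : P) : G) from rfl, ext0_coe,
    hθ y hy ⟨q, hqP⟩ ⟨_, hyP⟩ rfl]
  exact (ext0_coe θ ⟨q, hqP⟩).symm

/-- The block at an element of `P` of the maximal pair, on the centraliser of the cyclic group. -/
theorem exists_cyclic_block {v : G} (hv : v ∈ P) :
    ∃ c : Set (Cfsg.IrrCharacter (CZ v)), Cfsg.IsPBlock M c ∧
      CarriesInto p (P, e) v (el M (CZ v) c) 1 ∧ Cfsg.IsInducedBlock M (CZ v) c B ∧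
      Cfsg.blockDefect p c = Cfsg.blockDefect p B := by
  have main : ∀ L : Subgroup G, L = Subgroup.centralizer ({v} : Set G) →
      ∃ c : Set (Cfsg.IrrCharacter L), Cfsg.IsPBlock M c ∧
        CarriesInto p (P, e) v (el M L c) 1 ∧ Cfsg.IsInducedBlock M L c B ∧
        Cfsg.blockDefect p c = Cfsg.blockDefect p B := by
    rintro L rfl
    obtain ⟨b, hb⟩ := exists_subAt hM hB hm hab hv
    obtain ⟨hind, hPC, hPD⟩ := isInducedBlock_of_subAt hM hB hm hab hb
    refine ⟨b, hb.1, ?_, hind, ?_⟩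
    · show PLe p ⊤ (cS 1 (Subgroup.zpowers v), cj 1 _) (P, e)
      simpa using hb.2
    · have h1 := card_defectGroup hM hb.1 hPD
      have h2 := card_defectGroup hM hB
        ((H22.isDefectGroup_top_iff hM hB).2 (hm.isDefEl (H22.split M G) (H22.isBlockEl_elTop hB)))
      rw [Nat.card_congr (Subgroup.subgroupOfEquivOfLe hPC).toEquiv, h2] at h1
      exact (Nat.pow_right_injective (Fact.out : p.Prime).two_le h1).symm
  exact main _ (centralizer_zpowers_eq v)

/-- A nontrivial stable linear function fixes no character. -/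
theorem star_ne_self {η : G → ℂ} (hst : PairStable p (P, e) η) {v : G} (hv : v ∈ P)
    (hη : η v ≠ 1) {χ : Cfsg.IrrCharacter G} (hχ : χ ∈ B) :
    H22.star p M (P, e) η (χ : G → ℂ) ≠ (χ : G → ℂ) := by
  classical
  intro heq
  obtain ⟨k, hk⟩ := IsPGroup.iff_orderOf.1 hm.pair.pGroup ⟨v, hv⟩
  have hvp : ∃ k : ℕ, orderOf v = p ^ k := ⟨k, by rwa [← Subgroup.orderOf_coe] at hk⟩
  obtain ⟨c, hc, hcar, hind, hbd⟩ := exists_cyclic_block hM hB hm hab hv
  have hcS : c ∈ StarNorm.secBlocks M v := StarNorm.mem_secBlocks.2 hc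
  have hw : wt p (P, e) η v (el M (CZ v) c) = η v := by rw [H22.wt_eq hst hcar]; simp
  -- the part of `χ` in `c` vanishes
  have h0 : ∑ s ∈ Finset.univ.filter (fun s : CZ v => Cfsg.IsPRegular p s),
      (∑ d ∈ StarNorm.secBlocks M v, (wt p (P, e) η v (el M (CZ v) d) - 1) *
        StarNorm.secPart (χ : G → ℂ) v d s) * conj (StarNorm.secPart (χ : G → ℂ) v c s) = 0 := by
    refine Finset.sum_eq_zero fun s hs => mul_eq_zero_of_left ?_ _
    simp only [sub_mul, one_mul, Finset.sum_sub_distrib]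
    rw [← StarNorm.star_mul_eq (H26.irr_isClassFunction χ) hvp (Finset.mem_filter.1 hs).2, heq,
      StarNorm.sum_secPart (H26.irr_isClassFunction χ), sub_self]
  have h1 : (η v - 1) * secNorm p v c χ = 0 := by
    rw [← h0]
    simp only [Finset.sum_mul]
    rw [Finset.sum_comm, Finset.sum_eq_single c]
    · rw [hw, secNorm, Finset.mul_sum]
      exact Finset.sum_congr rfl fun s _ => by ring
    · intro d hd hne
      simp only [mul_assoc, ← Finset.mul_sum]
      exact mul_eq_zero_of_right _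
        (StarNorm.sum_regular_blockPart_eq_zero hM (StarNorm.mem_secBlocks.1 hd) hc hne _ _)
    · exact fun h => absurd hcS h
  have h2 : secNorm p v c χ = 0 := (mul_eq_zero.1 h1).resolve_left (sub_ne_zero.2 hη)
  have h3 : ∀ s : CZ v, bpart p v c χ s = 0 := by
    intro s
    rw [StarTrace.bpart_eq_secPart]
    split_ifs with hs
    · have hnn : ∀ t : CZ v, StarNorm.secPart (χ : G → ℂ) v c t *
          conj (StarNorm.secPart (χ : G → ℂ) v c t) =
          ((Complex.normSq (StarNorm.secPart (χ : G → ℂ) v c t) : ℝ) : ℂ) := fun t =>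
        Complex.mul_conj _
      simp only [secNorm, hnn, ← Complex.ofReal_sum, Complex.ofReal_eq_zero] at h2
      exact Complex.normSq_eq_zero.1 ((Finset.sum_eq_zero_iff_of_nonneg
        fun t _ => Complex.normSq_nonneg _).1 h2 s (Finset.mem_filter.2 ⟨Finset.mem_univ _, hs⟩))
    · rfl
  obtain ⟨χ₀, hχ₀, h00⟩ := H41.exists_height_zero (p := p) (H41.IsPBlock.nonempty hB)
  have h4 : redCont p v c B χ₀ χ = 0 := by
    rw [redCont, H56.Subsec.cont_one_eq hc]
    simp [h3]
  refine (H56.Subsec.res_redCont_eq_zero_iff hM hvp hind hbd hχ₀ hχ).1 ?_ h00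
  rw [show (⟨redCont p v c B χ₀ χ, _⟩ : H41.localRing M) = 0 from Subtype.ext h4, map_zero]

/-- Multiplying by a nontrivial stable linear character has trace zero. -/
theorem tr_eq_zero {θ : P →* ℂˣ}
    (hθ : ∀ t ∈ pairStab P e, ∀ v w : P, (w : G) = t * (v : G) * t⁻¹ → θ w = θ v)
    (hne : θ ≠ 1) : tr p M (P, e) B (ext0 fun x => (θ x : ℂ)) = 0 := by
  classical
  set η : G → ℂ := ext0 fun x => (θ x : ℂ) with hη
  have hst : PairStable p (P, e) η := pairStable_ext0 hM hB hm hab fun t ht v w h =>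
    congrArg Units.val (hθ t ht v w h)
  have hgen : Cfsg.IsGeneralizedCharacter P (fun x : P => η (x : G)) := by
    rw [show (fun x : P => η (x : G)) = fun x => (θ x : ℂ) from funext fun x => ext0_coe _ x]
    exact H27.mem_genChars_of_isCharacter (G := P)
      (H26.irr_isCharacter ⟨_, H26.isIrrCharacter_hom θ⟩)
  have habs : ∀ q ∈ P, η q * conj (η q) = 1 := fun q hq => by
    rw [hη, show q = ((⟨q, hq⟩ : P) : G) from rfl, ext0_coe,
      show conj (θ ⟨q, hq⟩ : ℂ) = (θ ⟨q, hq⟩⁻¹ : ℂ) from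
        (H26.irr_inv ⟨_, H26.isIrrCharacter_hom θ⟩ _).symm,
      ← Units.val_mul, map_inv, mul_inv_cancel, Units.val_one]
  have h1 : η 1 = 1 := by rw [hη, NilpotentBlocks.ext0_one, map_one, Units.val_one]
  obtain ⟨v, hv⟩ : ∃ v : P, θ v ≠ 1 := by
    by_contra h
    push Not at h
    exact hne (MonoidHom.ext h)
  refine Finset.sum_eq_zero fun χ hχ => ?_
  obtain ⟨ψ, -, -, hψ⟩ := H22.star_eq_irr hM hB (mem_mem'.1 hχ) hm hst hgen habs h1
  rw [hψ, H26.classInner_irr, if_neg]
  rintro rfl
  refine star_ne_self hM hB hm hab hst v.2 ?_ (mem_mem'.1 hχ) hψ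
  rw [hη, ext0_coe]
  exact fun h => hv (Units.ext h)

/-- The constant function gives the number of characters. -/
theorem card_eq_sum_wgt [Fintype P] :
    Nat.card (pairStab P e) * Nat.card B = ∑ v : P, wgt p M P e (v : G) := by
  classical
  have h := StarTrace.card_mul_tr hM hB hm hab (η := fun _ => (1 : ℂ)) fun _ _ _ _ _ => rfl
  simp only [one_mul] at h
  have htr : tr p M (P, e) B (fun _ => (1 : ℂ)) = (Nat.card B : ℂ) := by
    rw [tr, Finset.sum_congr rfl (g := fun _ => (1 : ℂ)) fun χ hχ => ?_, Finset.sum_const,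
      nsmul_one, Nat.card_eq_card_toFinset]
    · congr 2
      ext χ
      simp [mem_mem']
    · rw [show H22.star p M (P, e) (fun _ => (1 : ℂ)) (χ : G → ℂ) = (χ : G → ℂ) from
        funext fun g => StarNorm.star_one hM hB hm (mem_mem'.1 hχ) g, H26.classInner_irr, if_pos rfl]
  rw [htr] at h
  exact_mod_cast h

open scoped Classical in
/-- The fibres of an invariant homomorphism have equal weight. -/
theorem sum_wgt_fibre [Fintype P] {π : P →* P}
    (hπ : ∀ t ∈ pairStab P e, ∀ v w : P, (w : G) = t * (v : G) * t⁻¹ → π w = π v) (z : P) :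
    ∑ v ∈ Finset.univ.filter (fun v : P => π v = π z), wgt p M P e (v : G) =
      ∑ v ∈ Finset.univ.filter (fun v : P => π v = 1), wgt p M P e (v : G) := by
  letI : CommGroup P :=
    { (inferInstance : Group P) with mul_comm := fun a b => Subtype.ext (hab a a.2 b b.2) }
  have : Finite (P →* ℂˣ) := H52.Homocyclic.finite_hom
  have : Fintype (P →* ℂˣ) := Fintype.ofFinite _
  have key : ∀ a : P, ∑ μ : P →* ℂˣ, ((μ (π z))⁻¹ : ℂˣ).val * ∑ v : P, (μ (π v) : ℂ) *
      (wgt p M P e (v : G) : ℂ) = ∑ μ : P →* ℂˣ, ∑ v : P, (μ (π v) : ℂ) *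
      (wgt p M P e (v : G) : ℂ) := by
    intro _
    refine Finset.sum_congr rfl fun μ _ => ?_
    by_cases hμ : μ.comp π = 1
    · rw [show μ (π z) = 1 from DFunLike.congr_fun hμ z, inv_one, Units.val_one, one_mul]
    · have hinv : ∀ t ∈ pairStab P e, ∀ v w : P, (w : G) = t * (v : G) * t⁻¹ →
          (μ.comp π) w = (μ.comp π) v := fun t ht v w h => congrArg μ (hπ t ht v w h)
      have hst : PairStable p (P, e) (ext0 fun x => ((μ.comp π) x : ℂ)) :=
        pairStable_ext0 hM hB hm hab fun t ht v w h => congrArg Units.val (hinv t ht v w h)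
      have h := StarTrace.card_mul_tr hM hB hm hab hst
      rw [tr_eq_zero hM hB hm hab hinv hμ, mul_zero] at h
      simp only [ext0_coe, MonoidHom.comp_apply] at h
      rw [← h, mul_zero]
  have horth : ∀ a : P, ∑ μ : P →* ℂˣ, ((μ a)⁻¹ : ℂˣ).val * ∑ v : P, (μ (π v) : ℂ) *
      (wgt p M P e (v : G) : ℂ) = (Nat.card P : ℂ) *
      ((∑ v ∈ Finset.univ.filter (fun v : P => π v = a), wgt p M P e (v : G) : ℕ) : ℂ) := by
    intro a
    simp only [Finset.mul_sum]
    rw [Finset.sum_comm, Nat.cast_sum, Finset.mul_sum, Finset.sum_filter]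
    refine Finset.sum_congr rfl fun v _ => ?_
    rw [Finset.sum_congr rfl (g := fun μ : P →* ℂˣ =>
      (μ (a⁻¹ * π v) : ℂ) * (wgt p M P e (v : G) : ℂ)) fun μ _ => by
        rw [map_mul, map_inv, Units.val_mul, mul_assoc],
      ← Finset.sum_mul, H52.Homocyclic.sum_hom_apply]
    by_cases h : π v = a
    · rw [if_pos h, if_pos (by rw [h, inv_mul_cancel])]
    · rw [if_neg h, if_neg fun h' => h (inv_mul_eq_one.1 h').symm, zero_mul]
  have h := key 1
  rw [horth] at h
  have h1 := horth 1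
  simp only [map_one, inv_one, Units.val_one, one_mul] at h1
  rw [h1] at h
  exact_mod_cast mul_left_cancel₀ (Nat.cast_ne_zero.2 (Nat.card_pos (α := P)).ne') h

/-- The weights at `1` and at a fixed element agree once this is so for smaller centralisers. -/
theorem lrk_centralizer_eq_of_local {u : G} (hu : u ∈ P)
    (hfix : ∀ t ∈ pairStab P e, t * u * t⁻¹ = u)
    (hloc : ∀ v ∈ P, Subgroup.centralizer ({v} : Set G) ≠ ⊤ →
      lrk p M P e (Subgroup.centralizer ({v} : Set G) ⊓ Subgroup.centralizer ({u} : Set G)) =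
        lrk p M P e (Subgroup.centralizer ({v} : Set G))) :
    lrk p M P e (Subgroup.centralizer ({u} : Set G)) = lrk p M P e ⊤ := by
  classical
  have : Fintype P := Fintype.ofFinite _
  obtain ⟨π, hπ, N, hN, hπfix⟩ := exists_average hM hB hm hab
  set z : P := ⟨u, hu⟩ with hz
  have hsum := sum_wgt_fibre hM hB hm hab hπ z
  have hbij : ∑ v ∈ Finset.univ.filter (fun v : P => π v = π z), wgt p M P e (v : G) =
      ∑ y ∈ Finset.univ.filter (fun v : P => π v = 1), wgt p M P e ((z * y : P) : G) := by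
    refine (Finset.sum_bij (fun y _ => z * y) (fun y hy => ?_) (fun a _ b _ h => mul_left_cancel h)
      (fun v hv => ⟨z⁻¹ * v, ?_, mul_inv_cancel_left z v⟩) fun _ _ => rfl).symm
    · simp only [Finset.mem_filter, Finset.mem_univ, true_and] at hy ⊢
      rw [map_mul, hy, mul_one]
    · simp only [Finset.mem_filter, Finset.mem_univ, true_and] at hv ⊢
      rw [map_mul, map_inv, hv, inv_mul_cancel]
  -- the other elements of the kernel
  have hne : ∀ y : P, π y = 1 → y ≠ 1 →
      wgt p M P e ((z * y : P) : G) = wgt p M P e (y : G) := by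
    intro y hy hy1
    have huy : ∀ t ∈ pairStab P e,
        t * ((z * y : P) : G) * t⁻¹ = u * (t * (y : G) * t⁻¹) := fun t ht => by
      calc t * ((z * y : P) : G) * t⁻¹ = (t * u * t⁻¹) * (t * (y : G) * t⁻¹) := by
            rw [Subgroup.coe_mul, hz]; group
        _ = _ := by rw [hfix t ht]
    obtain ⟨t, ht, hty⟩ : ∃ t ∈ pairStab P e, t * (y : G) * t⁻¹ ≠ (y : G) := by
      by_contra h
      push Not at h
      obtain ⟨k, hk⟩ := IsPGroup.iff_orderOf.1 hm.pair.pGroup y
      have hdvd : orderOf y ∣ N := orderOf_dvd_of_pow_eq_one ((hπfix y h).symm.trans hy)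
      rcases k with _ | k
      · exact hy1 (orderOf_eq_one_iff.1 (by rw [hk, pow_zero]))
      · exact hN (((dvd_pow_self p k.succ_ne_zero).trans hk.symm.dvd).trans hdvd)
    have hnotop : ∀ {v : G}, Subgroup.centralizer ({v} : Set G) = ⊤ → t * v * t⁻¹ = v := by
      intro v hv
      have := Subgroup.mem_centralizer_singleton_iff.1 (hv.symm ▸ Subgroup.mem_top t :
        t ∈ Subgroup.centralizer ({v} : Set G))
      rw [this, mul_inv_cancel_right]
    have h1 := hloc (y : G) y.2 fun h => hty (hnotop h)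
    have h2 := hloc ((z * y : P) : G) (z * y).2 fun h => hty
      (mul_left_cancel ((huy t ht).symm.trans ((hnotop h).trans (Subgroup.coe_mul _ _ _))))
    have hcen : Subgroup.centralizer ({((z * y : P) : G)} : Set G) ⊓
        Subgroup.centralizer ({u} : Set G) =
        Subgroup.centralizer ({(y : G)} : Set G) ⊓ Subgroup.centralizer ({u} : Set G) := by
      ext x
      simp only [Subgroup.mem_inf, Subgroup.mem_centralizer_singleton_iff, Subgroup.coe_mul, hz]
      constructor
      · rintro ⟨hx, hxu⟩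
        refine ⟨mul_left_cancel (a := u) ?_, hxu⟩
        rw [← mul_assoc, ← hxu, mul_assoc, hx, mul_assoc]
      · rintro ⟨hx, hxu⟩
        exact ⟨by rw [← mul_assoc, hxu, mul_assoc, hx, mul_assoc], hxu⟩
    have hT : pairStab P e ⊓ Subgroup.centralizer ({((z * y : P) : G)} : Set G) =
        pairStab P e ⊓ Subgroup.centralizer ({(y : G)} : Set G) := by
      ext x
      simp only [Subgroup.mem_inf, Subgroup.mem_centralizer_singleton_iff]
      refine and_congr_right fun hx => ?_
      rw [← mul_inv_eq_iff_eq_mul, huy x hx, Subgroup.coe_mul, hz, mul_right_inj,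
        mul_inv_eq_iff_eq_mul]
    rw [wgt, wgt, hT, ← h1, ← h2, hcen]
  have hmem : (1 : P) ∈ Finset.univ.filter (fun v : P => π v = 1) := by simp
  rw [hbij, ← Finset.add_sum_erase _ _ hmem, ← Finset.add_sum_erase _ _ hmem,
    Finset.sum_congr rfl fun y hy => hne y (Finset.mem_filter.1 (Finset.mem_erase.1 hy).2).2
      (Finset.mem_erase.1 hy).1] at hsum
  have h := Nat.add_right_cancel hsum
  rw [mul_one, Subgroup.coe_one, hz, wgt, wgt] at h
  have hC1 : Subgroup.centralizer ({(1 : G)} : Set G) = ⊤ := by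
    refine eq_top_iff.2 fun x _ => ?_
    rw [Subgroup.mem_centralizer_singleton_iff, mul_one, one_mul]
  have hTu : pairStab P e ⊓ Subgroup.centralizer ({u} : Set G) = pairStab P e :=
    inf_eq_left.2 fun t ht => Subgroup.mem_centralizer_singleton_iff.2
      (mul_inv_eq_iff_eq_mul.1 (hfix t ht))
  rw [hC1, hTu, inf_top_eq] at h
  exact Nat.eq_of_mul_eq_mul_right Nat.card_pos h

end Cfsg.Agent.H40.Watanabe
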