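import Cfsg.Agent.H40.Watanabe
import Cfsg.Agent.H22.PairInducedIn

/-!
# Watanabe: rank and number of characters at a fixed element
-/

set_option autoImplicit false
set_option linter.unusedSectionVars false
set_option maxHeartbeats 400000

namespace Cfsg.Agent.H40.Watanabe

open Cfsg
open Cfsg.Agent.H22 (IsMaxEl PLe el elTop cj cS pairStab emb)
open Cfsg.Agent.H41 (ResField)
open Cfsg.Agent.H40.StarTrace (wgt)
open Cfsg.Agent.H40.Descend (lrk belowSet)

universe u

variable {G : Type u} [Group G] [Finite G] {p : ℕ} [Fact p.Prime] {M : Ideal Cfsg.AlgInt}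
  [M.IsMaximal] [CharP (ResField M) p] {P : Subgroup G} {e : MonoidAlgebra (ResField M) G}

/-- The stabiliser of a pair inside a subgroup. -/
theorem pairStab_subgroupOf {H : Subgroup G} (hPH : P ≤ H)
    {e' : MonoidAlgebra (ResField M) H} (he' : emb H.subtype e' = e) :
    pairStab (P.subgroupOf H) e' = (pairStab P e).subgroupOf H := by
  ext t
  rw [Subgroup.mem_subgroupOf]
  show _ ∧ cj t e' = e' ↔ _ ∧ cj (t : G) e = e
  refine and_congr ?_ ?_
  · show t ∈ Subgroup.normalizer ((P.subgroupOf H : Subgroup H) : Set H) ↔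
      (t : G) ∈ Subgroup.normalizer (P : Set G)
    rw [Subgroup.mem_normalizer_iff, Subgroup.mem_normalizer_iff]
    constructor
    · intro h x
      constructor
      · intro hx
        exact Subgroup.mem_subgroupOf.1 ((h ⟨x, hPH hx⟩).1 hx)
      · intro hx
        have hxH : x ∈ H := by
          have := H.mul_mem (H.mul_mem (H.inv_mem t.2) (hPH hx)) t.2
          simpa [mul_assoc] using this
        exact Subgroup.mem_subgroupOf.1 ((h ⟨x, hxH⟩).2 hx)
    · intro h x
      exact h x
  · rw [← he', show ((t : G)) = H.subtype t from rfl, H22.cj_emb H.subtype_injective,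
      (H22.emb_injective H.subtype_injective).eq_iff]

theorem map_centralizer_singleton {H : Subgroup G} (v : H) :
    (Subgroup.centralizer ({v} : Set H)).map H.subtype =
      H ⊓ Subgroup.centralizer ({(v : G)} : Set G) := by
  ext x
  simp only [Subgroup.mem_map, Subgroup.mem_inf, Subgroup.mem_centralizer_singleton_iff,
    Subgroup.subtype_apply]
  exact ⟨fun ⟨y, hy, hyx⟩ => hyx ▸ ⟨y.2, congrArg Subtype.val hy⟩,
    fun ⟨hx, hxv⟩ => ⟨⟨x, hx⟩, Subtype.ext hxv, rfl⟩⟩

/-- **Watanabe, ranks.** -/
theorem lrk_centralizer_eq (hM : Cfsg.IsPModular p M) {B : Set (Cfsg.IrrCharacter G)}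
    (hB : Cfsg.IsPBlock M B) (hm : IsMaxEl p ⊤ (elTop M B) (P, e))
    (hab : ∀ x ∈ P, ∀ y ∈ P, x * y = y * x) {u : G} (hu : u ∈ P)
    (hfix : ∀ t ∈ pairStab P e, t * u * t⁻¹ = u) :
    lrk p M P e (Subgroup.centralizer ({u} : Set G)) = lrk p M P e ⊤ := by
  induction hn : Nat.card G using Nat.strong_induction_on generalizing G with
  | _ n ih =>
  have := Fintype.ofFinite G
  refine lrk_centralizer_eq_of_local hM hB hm hab hu hfix fun v hv hne => ?_
  obtain ⟨b, hb⟩ := exists_subAt hM hB hm hab hv
  obtain ⟨e', he', hm'⟩ := Descend.exists_local_max hM hB hm hab hb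
  obtain ⟨-, hPC, -⟩ := isInducedBlock_of_subAt hM hB hm hab hb
  have hlt : Nat.card (Subgroup.centralizer ({v} : Set G)) < n := by
    rw [← hn]
    exact lt_of_le_of_ne (Subgroup.card_le_card_group _) fun h => hne (Subgroup.eq_top_of_card_eq _ h)
  set u' : Subgroup.centralizer ({v} : Set G) := ⟨u, hPC hu⟩ with hu'
  have h := ih _ hlt (G := Subgroup.centralizer ({v} : Set G)) hb.1 hm'
    (fun x hx y hy => Subtype.ext (hab _ hx _ hy)) (u := u') hu
    (fun t ht => by
      rw [pairStab_subgroupOf hPC he', Subgroup.mem_subgroupOf] at ht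
      exact Subtype.ext (hfix _ ht)) rfl
  rw [Descend.lrk_descend _ hPC he' _ _ (map_centralizer_singleton u'),
    Descend.lrk_descend _ hPC he' ⊤ (Subgroup.centralizer ({v} : Set G))
      (by rw [← MonoidHom.range_eq_map, Subgroup.range_subtype])] at h
  exact h

/-- **Watanabe.** The block below the pair at a fixed element has the same rank and the same
number of characters. -/
theorem rank_and_card (hM : Cfsg.IsPModular p M) {B : Set (Cfsg.IrrCharacter G)}
    (hB : Cfsg.IsPBlock M B) (hm : IsMaxEl p ⊤ (elTop M B) (P, e))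
    (hab : ∀ x ∈ P, ∀ y ∈ P, x * y = y * x) {u : G} (hu : u ∈ P)
    (hfix : ∀ t ∈ pairStab P e, t * u * t⁻¹ = u)
    {f : Set (Cfsg.IrrCharacter (Subgroup.centralizer ({u} : Set G)))}
    (hf : f ∈ belowSet M P e (Subgroup.centralizer ({u} : Set G))) :
    Cfsg.blockRank p B = Cfsg.blockRank p f ∧ Nat.card B = Nat.card f := by
  classical
  have := Fintype.ofFinite G
  have : Fintype P := Fintype.ofFinite P
  have hPp := hm.pair.pGroup
  have he : e ≠ 0 := hm.pair.block.ne_zero
  obtain ⟨b, hb⟩ := exists_subAt hM hB hm hab hu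
  obtain ⟨-, hPC, -⟩ := isInducedBlock_of_subAt hM hB hm hab hb
  obtain ⟨-, hmaxb⟩ := isMaxEl_local hM hB hm hab hb.2
  obtain rfl : f = b := Descend.belowSet_unique hPp hPC he ⟨hb.1, hmaxb.below⟩ hf
  have hmain := lrk_centralizer_eq hM hB hm hab hu hfix
  refine ⟨?_, ?_⟩
  · rw [← Descend.lrk_top hPp he hB hm.below, ← hmain, Descend.lrk_eq hPp hPC he hf]
  · obtain ⟨e', he', hm'⟩ := Descend.exists_local_max hM hB hm hab hb
    have hTH : pairStab P e ≤ (Subgroup.centralizer ({u} : Set G)) := fun t ht =>
      Subgroup.mem_centralizer_singleton_iff.2 (mul_inv_eq_iff_eq_mul.1 (hfix t ht))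
    have : Fintype (Subgroup.centralizer ({u} : Set G)) := Fintype.ofFinite _
    have : Fintype (P.subgroupOf (Subgroup.centralizer ({u} : Set G))) := Fintype.ofFinite _
    have hG := card_eq_sum_wgt hM hB hm hab
    have hH' := card_eq_sum_wgt hM hb.1 hm' (fun x hx y hy => Subtype.ext (hab _ hx _ hy))
    rw [pairStab_subgroupOf hPC he',
      Nat.card_congr (Subgroup.subgroupOfEquivOfLe hTH).toEquiv] at hH'
    have hw : ∀ v : P.subgroupOf (Subgroup.centralizer ({u} : Set G)),
        wgt p M (P.subgroupOf (Subgroup.centralizer ({u} : Set G))) e' (v : (Subgroup.centralizer ({u} : Set G))) = wgt p M P e ((v : (Subgroup.centralizer ({u} : Set G))) : G) := by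
      intro v
      rw [wgt, wgt, pairStab_subgroupOf hPC he',
        Descend.lrk_descend (Subgroup.centralizer ({u} : Set G)) hPC he' _ _ (map_centralizer_singleton (v : (Subgroup.centralizer ({u} : Set G)))),
        ← Subgroup.card_map_of_injective (Subgroup.centralizer ({u} : Set G)).subtype_injective]
      congr 1
      · by_cases hne : Subgroup.centralizer ({((v : (Subgroup.centralizer ({u} : Set G))) : G)} : Set G) = ⊤
        · rw [hne, inf_top_eq, hmain]
        · obtain ⟨b', hb'⟩ := exists_subAt hM hB hm hab (u := ((v : (Subgroup.centralizer ({u} : Set G))) : G)) v.2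
          obtain ⟨e'', he'', hm''⟩ := Descend.exists_local_max hM hB hm hab hb'
          obtain ⟨-, hPC', -⟩ := isInducedBlock_of_subAt hM hB hm hab hb'
          have h := lrk_centralizer_eq hM hb'.1 hm''
            (fun x hx y hy => Subtype.ext (hab _ hx _ hy))
            (u := (⟨u, hPC' hu⟩ : Subgroup.centralizer ({((v : (Subgroup.centralizer ({u} : Set G))) : G)} : Set G))) hu
            fun t ht => by
              rw [pairStab_subgroupOf hPC' he'', Subgroup.mem_subgroupOf] at ht
              exact Subtype.ext (hfix _ ht)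
          rw [Descend.lrk_descend _ hPC' he'' _ _ (map_centralizer_singleton _),
            Descend.lrk_descend _ hPC' he'' ⊤ (Subgroup.centralizer ({((v : (Subgroup.centralizer ({u} : Set G))) : G)} : Set G))
              (by rw [← MonoidHom.range_eq_map, Subgroup.range_subtype])] at h
          rw [inf_comm]
          exact h
      · congr 1
        rw [Subgroup.map_inf _ _ _ (Subgroup.centralizer ({u} : Set G)).subtype_injective, map_centralizer_singleton,
          Subgroup.map_subgroupOf_eq_of_le hTH, ← inf_assoc, inf_eq_left.2 hTH]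
    rw [Fintype.sum_equiv (Subgroup.subgroupOfEquivOfLe hPC).toEquiv
      (fun v : P.subgroupOf (Subgroup.centralizer ({u} : Set G)) => wgt p M (P.subgroupOf (Subgroup.centralizer ({u} : Set G))) e' (v : (Subgroup.centralizer ({u} : Set G))))
      (fun v : P => wgt p M P e (v : G)) fun v => hw v, ← hG] at hH'
    exact (Nat.eq_of_mul_eq_mul_left Nat.card_pos hH').symm

end Cfsg.Agent.H40.Watanabe
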